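import Mathlib
import Cfsg.Prelude.Def_Solvable
import Cfsg.Prelude.Def_Transfer
import Cfsg.Agent.Lib.Helper28.PCore
import Cfsg.Agent.Lib.Helper28.Extra
import Cfsg.Agent.Lib.Helper28.LargeES
import Cfsg.Agent.Lib.Helper28.LargeES2

set_option autoImplicit false

namespace Cfsg.Agent.Lib.Helper28

open Cfsg

/-- In a subgroup whose commutators are `1` or a central involution `u`: multiplying by an
element not commuting with `x` flips whether an element commutes with `x`. -/
theorem flip_comm {G : Type*} [Group G] (Q : Subgroup G) (u : G) (hu1 : u ≠ 1) (huu : u * u = 1)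
    (hcomm : ∀ a ∈ Q, ∀ b ∈ Q, a * b * a⁻¹ * b⁻¹ = 1 ∨ a * b * a⁻¹ * b⁻¹ = u)
    (hucen : ∀ q ∈ Q, u * q = q * u)
    {x y₀ y : G} (hx : x ∈ Q) (hy₀ : y₀ ∈ Q) (hy : y ∈ Q) (h0 : x * y₀ ≠ y₀ * x) :
    x * (y₀ * y) = (y₀ * y) * x ↔ ¬ x * y = y * x := by
  have e0 : x * y₀ * x⁻¹ * y₀⁻¹ = u := by
    rcases hcomm x hx y₀ hy₀ with h | h
    · exfalso
      apply h0
      calc x * y₀ = (x * y₀ * x⁻¹ * y₀⁻¹) * (y₀ * x) := by group
        _ = y₀ * x := by rw [h, one_mul]
    · exact h
  have e0' : x * y₀ = u * y₀ * x := by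
    calc x * y₀ = (x * y₀ * x⁻¹ * y₀⁻¹) * (y₀ * x) := by group
      _ = u * y₀ * x := by rw [e0, mul_assoc]
  constructor
  · intro h hxy
    apply hu1
    have h2 : u * (y₀ * y * x) = y₀ * y * x := by
      calc u * (y₀ * y * x) = (u * y₀ * x) * y := by
            rw [mul_assoc y₀ y x, ← hxy]; group
        _ = x * y₀ * y := by rw [e0']
        _ = x * (y₀ * y) := by group
        _ = y₀ * y * x := h
    calc u = (u * (y₀ * y * x)) * (y₀ * y * x)⁻¹ := by group
      _ = (y₀ * y * x) * (y₀ * y * x)⁻¹ := by rw [h2]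
      _ = 1 := by group
  · intro hxy
    have e1 : x * y * x⁻¹ * y⁻¹ = u := by
      rcases hcomm x hx y hy with h | h
      · exfalso
        apply hxy
        calc x * y = (x * y * x⁻¹ * y⁻¹) * (y * x) := by group
          _ = y * x := by rw [h, one_mul]
      · exact h
    have e1' : x * y = u * y * x := by
      calc x * y = (x * y * x⁻¹ * y⁻¹) * (y * x) := by group
        _ = u * y * x := by rw [e1, mul_assoc]
    calc x * (y₀ * y) = (x * y₀) * y := by group
      _ = u * y₀ * (x * y) := by rw [e0']; group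
      _ = u * y₀ * (u * y * x) := by rw [e1']
      _ = u * (y₀ * u) * y * x := by group
      _ = u * (u * y₀) * y * x := by rw [hucen y₀ hy₀]
      _ = (u * u) * y₀ * y * x := by group
      _ = y₀ * y * x := by rw [huu]; group

theorem card_eq_filter {G : Type*} [Group G] [Fintype G] [DecidableEq G] (H : Subgroup G)
    [DecidablePred (· ∈ H)] :
    Nat.card ↥H = (Finset.univ.filter (· ∈ H)).card := by
  rw [← Fintype.card_subtype, ← Nat.card_eq_fintype_card]

/-- Sum of the commutation sign over a subgroup `B` of `Q`, against a fixed `x ∈ Q`. -/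
theorem sign_sum {G : Type*} [Group G] [Fintype G] [DecidableEq G] (Q : Subgroup G) (u : G)
    (hu1 : u ≠ 1) (huu : u * u = 1)
    (hcomm : ∀ a ∈ Q, ∀ b ∈ Q, a * b * a⁻¹ * b⁻¹ = 1 ∨ a * b * a⁻¹ * b⁻¹ = u)
    (hucen : ∀ q ∈ Q, u * q = q * u)
    (B : Subgroup G) [DecidablePred (· ∈ B)] (hBQ : B ≤ Q) {x : G} (hx : x ∈ Q) :
    (∑ y ∈ Finset.univ.filter (· ∈ B), (if x * y = y * x then (1 : ℤ) else -1)) =
      if (∀ y ∈ B, x * y = y * x) then ((Finset.univ.filter (· ∈ B)).card : ℤ) else 0 := by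
  by_cases hall : ∀ y ∈ B, x * y = y * x
  · rw [if_pos hall]
    rw [Finset.sum_congr rfl (g := fun _ => (1 : ℤ))]
    · simp
    · intro y hy
      rw [Finset.mem_filter] at hy
      rw [if_pos (hall y hy.2)]
  · rw [if_neg hall]
    push Not at hall
    obtain ⟨y₀, hy₀, hxy₀⟩ := hall
    have h1 : (∑ y ∈ Finset.univ.filter (· ∈ B), (if x * (y₀ * y) = (y₀ * y) * x then (1 : ℤ) else -1))
        = ∑ y ∈ Finset.univ.filter (· ∈ B), (if x * y = y * x then (1 : ℤ) else -1) := by
      apply Finset.sum_equiv (Equiv.mulLeft y₀)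
      · intro y
        simp only [Finset.mem_filter, Finset.mem_univ, true_and, Equiv.coe_mulLeft]
        constructor
        · intro h
          exact B.mul_mem hy₀ h
        · intro h
          have := B.mul_mem (B.inv_mem hy₀) h
          rwa [inv_mul_cancel_left] at this
      · intro y _
        rfl
    have h2 : (∑ y ∈ Finset.univ.filter (· ∈ B), (if x * (y₀ * y) = (y₀ * y) * x then (1 : ℤ) else -1))
        = ∑ y ∈ Finset.univ.filter (· ∈ B), -(if x * y = y * x then (1 : ℤ) else -1) := by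
      apply Finset.sum_congr rfl
      intro y hy
      rw [Finset.mem_filter] at hy
      have := flip_comm Q u hu1 huu hcomm hucen hx (hBQ hy₀) (hBQ hy.2) hxy₀
      by_cases hc : x * y = y * x
      · rw [if_pos hc, if_neg]
        rw [this]
        exact fun h => h hc
      · rw [if_neg hc, if_pos (this.mpr hc)]
        norm_num
    rw [Finset.sum_neg_distrib] at h2
    have h3 := h1.symm.trans h2
    linarith

/-- Orders of centralizers in an extraspecial-like subgroup: `|A| * |C_Q(A)| = 2 |Q|` for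
`Z(Q) ≤ A ≤ Q`. -/
theorem es_card_cent {G : Type*} [Group G] [Finite G] (Q : Subgroup G) (u : G) (huQ : u ∈ Q)
    (hu1 : u ≠ 1) (huu : u * u = 1)
    (hcomm : ∀ a ∈ Q, ∀ b ∈ Q, a * b * a⁻¹ * b⁻¹ = 1 ∨ a * b * a⁻¹ * b⁻¹ = u)
    (hcen : ∀ v ∈ Q, (∀ q ∈ Q, q * v = v * q) → v = 1 ∨ v = u)
    (hucen : ∀ q ∈ Q, u * q = q * u)
    (A : Subgroup G) (hAQ : A ≤ Q) (huA : u ∈ A) :
    Nat.card ↥A * Nat.card ↥(Q ⊓ Subgroup.centralizer (A : Set G)) = 2 * Nat.card ↥Q := by
  classical
  have : Fintype G := Fintype.ofFinite G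
  rw [card_eq_filter A, card_eq_filter Q, card_eq_filter (Q ⊓ Subgroup.centralizer (A : Set G))]
  have hsum : (∑ q ∈ Finset.univ.filter (· ∈ Q), ∑ a ∈ Finset.univ.filter (· ∈ A),
        (if q * a = a * q then (1 : ℤ) else -1))
      = ∑ a ∈ Finset.univ.filter (· ∈ A), ∑ q ∈ Finset.univ.filter (· ∈ Q),
        (if q * a = a * q then (1 : ℤ) else -1) := Finset.sum_comm
  have hL : (∑ q ∈ Finset.univ.filter (· ∈ Q), ∑ a ∈ Finset.univ.filter (· ∈ A),
        (if q * a = a * q then (1 : ℤ) else -1))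
      = ((Finset.univ.filter (· ∈ A)).card : ℤ)
        * ((Finset.univ.filter (· ∈ Q ⊓ Subgroup.centralizer (A : Set G))).card : ℤ) := by
    rw [Finset.sum_congr rfl (g := fun q => if (∀ y ∈ A, q * y = y * q) then
      ((Finset.univ.filter (· ∈ A)).card : ℤ) else 0)]
    · have hf : Finset.univ.filter (fun q => q ∈ Q ∧ ∀ y ∈ A, q * y = y * q)
          = Finset.univ.filter (· ∈ Q ⊓ Subgroup.centralizer (A : Set G)) := by
        apply Finset.filter_congr
        intro q _
        rw [Subgroup.mem_inf, Subgroup.mem_centralizer_iff]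
        constructor
        · rintro ⟨h1, h2⟩
          exact ⟨h1, fun y hy => (h2 y hy).symm⟩
        · rintro ⟨h1, h2⟩
          exact ⟨h1, fun y hy => (h2 y hy).symm⟩
      rw [← Finset.sum_filter, Finset.sum_const, Finset.filter_filter, nsmul_eq_mul, mul_comm, hf]
    · intro q hq
      rw [Finset.mem_filter] at hq
      exact sign_sum Q u hu1 huu hcomm hucen A hAQ hq.2
  have hR : (∑ a ∈ Finset.univ.filter (· ∈ A), ∑ q ∈ Finset.univ.filter (· ∈ Q),
        (if q * a = a * q then (1 : ℤ) else -1))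
      = 2 * ((Finset.univ.filter (· ∈ Q)).card : ℤ) := by
    rw [Finset.sum_congr rfl (g := fun a => if (a = 1 ∨ a = u) then
      ((Finset.univ.filter (· ∈ Q)).card : ℤ) else 0)]
    · rw [← Finset.sum_filter, Finset.sum_const, Finset.filter_filter, nsmul_eq_mul]
      have hpair : (Finset.univ.filter (fun a => a ∈ A ∧ (a = 1 ∨ a = u))) = {1, u} := by
        ext a
        simp only [Finset.mem_filter, Finset.mem_univ, true_and, Finset.mem_insert,
          Finset.mem_singleton]
        constructor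
        · exact fun h => h.2
        · rintro (h | h)
          · exact ⟨h ▸ A.one_mem, Or.inl h⟩
          · exact ⟨h ▸ huA, Or.inr h⟩
      rw [hpair, Finset.card_pair (Ne.symm hu1)]
      norm_num
    · intro a ha
      rw [Finset.mem_filter] at ha
      have haQ : a ∈ Q := hAQ ha.2
      have h := sign_sum Q u hu1 huu hcomm hucen Q le_rfl haQ
      have h' : (∑ q ∈ Finset.univ.filter (· ∈ Q), (if q * a = a * q then (1 : ℤ) else -1))
          = ∑ q ∈ Finset.univ.filter (· ∈ Q), (if a * q = q * a then (1 : ℤ) else -1) := by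
        apply Finset.sum_congr rfl
        intro q _
        by_cases hc : q * a = a * q
        · rw [if_pos hc, if_pos hc.symm]
        · rw [if_neg hc, if_neg (fun h => hc h.symm)]
      rw [h', h]
      by_cases hc : ∀ y ∈ Q, a * y = y * a
      · rw [if_pos hc, if_pos (hcen a haQ (fun q hq => (hc q hq).symm))]
      · rw [if_neg hc, if_neg]
        rintro (h1 | h1)
        · apply hc
          intro y _
          rw [h1, one_mul, mul_one]
        · apply hc
          intro y hy
          rw [h1]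
          exact hucen y hy
  have := hL.symm.trans (hsum.trans hR)
  exact_mod_cast this

/-- Double centralizer property: for `Z(Q) ≤ A ≤ Q` and `x ∈ Q` outside `A`, some element of
`C_Q(A)` conjugates `x` to `u x`. -/
theorem es_double_cent {G : Type*} [Group G] [Finite G] (Q : Subgroup G) (u : G) (huQ : u ∈ Q)
    (hu1 : u ≠ 1) (huu : u * u = 1)
    (hcomm : ∀ a ∈ Q, ∀ b ∈ Q, a * b * a⁻¹ * b⁻¹ = 1 ∨ a * b * a⁻¹ * b⁻¹ = u)
    (hcen : ∀ v ∈ Q, (∀ q ∈ Q, q * v = v * q) → v = 1 ∨ v = u)
    (hucen : ∀ q ∈ Q, u * q = q * u)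
    (A : Subgroup G) (hAQ : A ≤ Q) (huA : u ∈ A) {x : G} (hx : x ∈ Q) (hxA : x ∉ A) :
    ∃ g ∈ Q, (∀ a ∈ A, g * a = a * g) ∧ g * x * g⁻¹ = u * x := by
  classical
  have c1 := es_card_cent Q u huQ hu1 huu hcomm hcen hucen A hAQ huA
  have hBQ : Q ⊓ Subgroup.centralizer (A : Set G) ≤ Q := inf_le_left
  have huB : u ∈ Q ⊓ Subgroup.centralizer (A : Set G) := by
    rw [Subgroup.mem_inf, Subgroup.mem_centralizer_iff]
    exact ⟨huQ, fun a ha => (hucen a (hAQ ha)).symm⟩
  have c2 := es_card_cent Q u huQ hu1 huu hcomm hcen hucen _ hBQ huB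
  have hpos : 0 < Nat.card ↥(Q ⊓ Subgroup.centralizer (A : Set G)) := Nat.card_pos
  have hcard : Nat.card ↥(Q ⊓ Subgroup.centralizer
      ((Q ⊓ Subgroup.centralizer (A : Set G) : Subgroup G) : Set G)) = Nat.card ↥A := by
    have : Nat.card ↥(Q ⊓ Subgroup.centralizer (A : Set G)) * Nat.card ↥(Q ⊓ Subgroup.centralizer
      ((Q ⊓ Subgroup.centralizer (A : Set G) : Subgroup G) : Set G))
        = Nat.card ↥(Q ⊓ Subgroup.centralizer (A : Set G)) * Nat.card ↥A := by
      rw [c2, ← c1, mul_comm]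
    exact Nat.eq_of_mul_eq_mul_left hpos this
  have hle : A ≤ Q ⊓ Subgroup.centralizer
      ((Q ⊓ Subgroup.centralizer (A : Set G) : Subgroup G) : Set G) := by
    intro a ha
    rw [Subgroup.mem_inf, Subgroup.mem_centralizer_iff]
    refine ⟨hAQ ha, ?_⟩
    intro b hb
    rw [SetLike.mem_coe, Subgroup.mem_inf, Subgroup.mem_centralizer_iff] at hb
    exact (hb.2 a ha).symm
  have heq : A = Q ⊓ Subgroup.centralizer
      ((Q ⊓ Subgroup.centralizer (A : Set G) : Subgroup G) : Set G) :=
    Subgroup.eq_of_le_of_card_ge hle (le_of_eq hcard)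
  have hx' : ¬ ∀ b ∈ Q ⊓ Subgroup.centralizer (A : Set G), b * x = x * b := by
    intro hall
    apply hxA
    rw [heq, Subgroup.mem_inf, Subgroup.mem_centralizer_iff]
    exact ⟨hx, fun b hb => hall b hb⟩
  push Not at hx'
  obtain ⟨g, hg, hgx⟩ := hx'
  rw [Subgroup.mem_inf, Subgroup.mem_centralizer_iff] at hg
  refine ⟨g, hg.1, fun a ha => (hg.2 a ha).symm, ?_⟩
  rcases hcomm g hg.1 x hx with h | h
  · exfalso
    apply hgx
    calc g * x = (g * x * g⁻¹ * x⁻¹) * (x * g) := by group
      _ = x * g := by rw [h, one_mul]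
  · calc g * x * g⁻¹ = (g * x * g⁻¹ * x⁻¹) * x := by group
      _ = u * x := by rw [h]

/-- Double centralizer property, for an arbitrary subgroup `A ≤ Q`: if neither `x` nor `u x`
lies in `A` then some element of `C_Q(A)` conjugates `x` to `u x`. -/
theorem es_double_cent' {G : Type*} [Group G] [Finite G] (Q : Subgroup G) (u : G) (huQ : u ∈ Q)
    (hu1 : u ≠ 1) (huu : u * u = 1)
    (hcomm : ∀ a ∈ Q, ∀ b ∈ Q, a * b * a⁻¹ * b⁻¹ = 1 ∨ a * b * a⁻¹ * b⁻¹ = u)
    (hcen : ∀ v ∈ Q, (∀ q ∈ Q, q * v = v * q) → v = 1 ∨ v = u)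
    (hucen : ∀ q ∈ Q, u * q = q * u)
    (A : Subgroup G) (hAQ : A ≤ Q) {x : G} (hx : x ∈ Q) (hxA : x ∉ A) (hxA' : u * x ∉ A) :
    ∃ g ∈ Q, (∀ a ∈ A, g * a = a * g) ∧ g * x * g⁻¹ = u * x := by
  have huinv : u⁻¹ = u := inv_eq_of_mul_eq_one_left huu
  have hmemQ : ∀ a, (a ∈ A ∨ u * a ∈ A) → a ∈ Q := by
    rintro a (h | h)
    · exact hAQ h
    · have := Q.mul_mem huQ (hAQ h)
      rwa [← mul_assoc, huu, one_mul] at this
  let A' : Subgroup G :=
    { carrier := {a | a ∈ A ∨ u * a ∈ A}
      one_mem' := Or.inl A.one_mem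
      mul_mem' := by
        intro a b ha hb
        have haQ := hmemQ a ha
        have hbQ := hmemQ b hb
        rcases ha with ha | ha
        · rcases hb with hb | hb
          · exact Or.inl (A.mul_mem ha hb)
          · right
            have : u * (a * b) = a * (u * b) := by
              rw [← mul_assoc, hucen a haQ, mul_assoc]
            rw [this]
            exact A.mul_mem ha hb
        · rcases hb with hb | hb
          · right
            rw [← mul_assoc]
            exact A.mul_mem ha hb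
          · left
            have : a * b = (u * a) * (u * b) := by
              calc a * b = (u * u) * a * b := by rw [huu, one_mul]
                _ = u * (u * a) * b := by group
                _ = u * (a * u) * b := by rw [hucen a haQ]
                _ = (u * a) * (u * b) := by group
            rw [this]
            exact A.mul_mem ha hb
      inv_mem' := by
        intro a ha
        have haQ := hmemQ a ha
        rcases ha with ha | ha
        · exact Or.inl (A.inv_mem ha)
        · right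
          have : u * a⁻¹ = (u * a)⁻¹ := by
            rw [mul_inv_rev, huinv]
            have h1 := hucen a⁻¹ (Q.inv_mem haQ)
            exact h1
          rw [this]
          exact A.inv_mem ha }
  have hA'Q : A' ≤ Q := fun a ha => hmemQ a ha
  have huA' : u ∈ A' := Or.inr (by rw [huu]; exact A.one_mem)
  have hxA'' : x ∉ A' := by
    rintro (h | h)
    · exact hxA h
    · exact hxA' h
  obtain ⟨g, hg, hgA, hgx⟩ := es_double_cent Q u huQ hu1 huu hcomm hcen hucen A' hA'Q huA' hx hxA''
  exact ⟨g, hg, fun a ha => hgA a (Or.inl ha), hgx⟩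

/-- The double centralizer property in `Q u` for a conjugate `u = g z g⁻¹` of `z`, in the large
extraspecial setting. -/
theorem les_double_cent {G : Type*} [Group G] [Finite G] (z : G) (hz : orderOf z = 2)
    (hE : IsExtraspecial 2 ↥(Qc z))
    (hC : Subgroup.centralizer ((Qc z : Subgroup G) : Set G) ≤ Qc z) (g : G)
    (A : Subgroup G) (hA : A ≤ Qc (g * z * g⁻¹)) {x : G} (hx : x ∈ Qc (g * z * g⁻¹))
    (hxA : x ∉ A) (hxA' : g * z * g⁻¹ * x ∉ A) :
    ∃ q ∈ Qc (g * z * g⁻¹), (∀ a ∈ A, q * a = a * q) ∧ q * x * q⁻¹ = g * z * g⁻¹ * x := by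
  obtain ⟨hzQ, hzZ, hall⟩ := les_center z hz hE hC
  have hzz : z * z = 1 := mul_self_of_orderOf_two hz
  have hz1 : z ≠ 1 := by
    intro h
    rw [h, orderOf_one] at hz
    norm_num at hz
  have huQ : g * z * g⁻¹ ∈ Qc (g * z * g⁻¹) := Qc_conj g z z hzQ
  have hu1 : g * z * g⁻¹ ≠ 1 := by
    intro h
    apply hz1
    calc z = g⁻¹ * (g * z * g⁻¹) * g := by group
      _ = 1 := by rw [h]; group
  have huu : (g * z * g⁻¹) * (g * z * g⁻¹) = 1 := by
    calc (g * z * g⁻¹) * (g * z * g⁻¹) = g * (z * z) * g⁻¹ := by group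
      _ = 1 := by rw [hzz]; group
  have hucen : ∀ q ∈ Qc (g * z * g⁻¹), (g * z * g⁻¹) * q = q * (g * z * g⁻¹) :=
    fun q hq => Qc_le_centralizer _ hq
  refine es_double_cent' (Qc (g * z * g⁻¹)) (g * z * g⁻¹) huQ hu1 huu
    (fun a ha b hb => les_comm_conj z hz hE hC g a b ha hb) ?_ hucen A hA hx hxA hxA'
  intro v hv hvc
  by_contra hcon
  push Not at hcon
  obtain ⟨q, hq, hqv⟩ := les_conj z hz hE hC g v hv hcon.1 hcon.2
  apply hu1
  have h1 : q * v * q⁻¹ = v := by
    rw [hvc q hq]; group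
  rw [h1] at hqv
  calc g * z * g⁻¹ = (g * z * g⁻¹ * v) * v⁻¹ := by group
    _ = v * v⁻¹ := by rw [← hqv]
    _ = 1 := by group

end Cfsg.Agent.Lib.Helper28
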