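import Cfsg.Agent.Lib.Helper4.GolayStab

set_option autoImplicit false

namespace Cfsg.Agent.Lib.Helper28

open Cfsg Cfsg.Agent.Lib.Helper4.Golay
open Pointwise

theorem std_octad : support₂ (word 5279) ∈ octads := by
  obtain ⟨h1, h2, h3, h4⟩ := octChk_spec oct5
  refine ⟨⟨word 5279, ?_, rfl⟩, ?_⟩
  · rw [SetLike.mem_coe, golay_eq]
    apply red_sound basisP _ _ basisP_mem
    rw [h3, word_zero]
    exact Submodule.zero_mem _
  · rw [card_support, hammingNorm_word, h2]

theorem pt_mem_std (i : ℕ) (hi : i < 5) : pt i ∈ support₂ (word 5279) := by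
  rw [mem_support_word, code_pt i (by omega)]
  interval_cases i <;> decide

/-- The standard embedding of five points. -/
def std5 : Fin 5 ↪ GolayPt :=
  ⟨fun i => pt i.val, fun i j h => Fin.ext (pt_inj (by omega) (by omega) h)⟩

theorem std5_apply (i : Fin 5) : std5 i = pt i.val := rfl

theorem octad_unique5 {o o' : Finset GolayPt} (ho : o ∈ octads) (ho' : o' ∈ octads)
    (x : Fin 5 ↪ GolayPt) (h : ∀ i, x i ∈ o) (h' : ∀ i, x i ∈ o') : o = o' := by
  classical
  have ht : (Finset.univ.map x).card = 5 := by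
    rw [Finset.card_map]
    simp
  obtain ⟨b, -, huniq⟩ := Cfsg.Agent.S0363.result.2 _ ht
  have h1 := huniq o ⟨ho, by
    intro p hp
    rw [Finset.mem_map] at hp
    obtain ⟨i, -, rfl⟩ := hp
    exact h i⟩
  have h2 := huniq o' ⟨ho', by
    intro p hp
    rw [Finset.mem_map] at hp
    obtain ⟨i, -, rfl⟩ := hp
    exact h' i⟩
  rw [h1, h2]

theorem exists_octad5 (x : Fin 5 ↪ GolayPt) : ∃ o ∈ octads, ∀ i, x i ∈ o := by
  classical
  obtain ⟨b, ⟨hb, hsub⟩, -⟩ := Cfsg.Agent.S0363.result.2 (Finset.univ.map x) (by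
    rw [Finset.card_map]
    simp)
  exact ⟨b, hb, fun i => hsub (Finset.mem_map.mpr ⟨i, Finset.mem_univ _, rfl⟩)⟩

/-- Six distinct points can be moved to the standard position: `pt 0, …, pt 4` and then `pt 7`
(if the six points lie in an octad) or `pt 5` (otherwise). -/
theorem six_std (a : Fin 6 → GolayPt) (ha : Function.Injective a) (c : ℕ)
    (hc : (c = 7 ∧ ∃ o ∈ octads, ∀ i, a i ∈ o) ∨ (c = 5 ∧ ¬ ∃ o ∈ octads, ∀ i, a i ∈ o)) :
    ∃ h ∈ M24, ∀ i : Fin 6, h (a i) = pt (if i.val < 5 then i.val else c) := by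
  classical
  let x : Fin 5 ↪ GolayPt :=
    ⟨fun i => a (Fin.castSucc i), fun i j h => Fin.castSucc_injective _ (ha h)⟩
  have hx : ∀ i : Fin 5, x i = a (Fin.castSucc i) := fun i => rfl
  obtain ⟨h₁, hh₁, hmap⟩ := exists_map x std5
  obtain ⟨o, ho, hxo⟩ := exists_octad5 x
  have hO : h₁ • o = support₂ (word 5279) := by
    apply octad_unique5 (smul_mem_weight hh₁ ho) std_octad std5
    · intro i
      rw [← hmap i]
      exact Finset.smul_mem_smul_finset (hxo i)
    · intro i
      exact pt_mem_std i.val i.2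
  have hlow : ∀ i : Fin 6, i.val < 5 → h₁ (a i) = pt i.val := by
    intro i hi
    have := hmap ⟨i.val, hi⟩
    rw [hx, std5_apply] at this
    have e : Fin.castSucc (⟨i.val, hi⟩ : Fin 5) = i := Fin.ext rfl
    rw [e] at this
    exact this
  have hne : ∀ j < 5, h₁ (a 5) ≠ pt j := by
    intro j hj e
    have h2 := hlow ⟨j, by omega⟩ hj
    have e2 : h₁ (a 5) = h₁ (a ⟨j, by omega⟩) := by rw [e, h2]
    have e3 := ha (h₁.injective e2)
    have e4 := congrArg Fin.val e3
    simp at e4
    omega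
  have hcode : 5 ≤ code (h₁ (a 5)) := by
    by_contra hlt
    exact hne (code (h₁ (a 5))) (by omega) (pt_code _).symm
  have hfin : ∀ (k : Equiv.Perm GolayPt), k ∈ M24 → (∀ j < 5, k (pt j) = pt j) →
      k (pt c) = h₁ (a 5) →
      ∃ h ∈ M24, ∀ i : Fin 6, h (a i) = pt (if i.val < 5 then i.val else c) := by
    intro k hk hkfix hkc
    refine ⟨k⁻¹ * h₁, Subgroup.mul_mem _ (Subgroup.inv_mem _ hk) hh₁, ?_⟩
    intro i
    by_cases hi : i.val < 5
    · rw [if_pos hi, Equiv.Perm.mul_apply, hlow i hi, Equiv.Perm.inv_eq_iff_eq]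
      exact (hkfix i.val hi).symm
    · have e : i = 5 := Fin.ext (by
        have := i.2
        simp
        omega)
      rw [if_neg hi, Equiv.Perm.mul_apply, e, Equiv.Perm.inv_eq_iff_eq]
      exact hkc.symm
  rcases hc with ⟨hc7, o', ho', hao'⟩ | ⟨hc5, hno⟩
  · have hoo : o' = o := octad_unique5 ho' ho x (fun i => hao' _) hxo
    have hp : a 5 ∈ o := by
      rw [← hoo]
      exact hao' 5
    have h1 : h₁ (a 5) ∈ support₂ (word 5279) := by
      rw [← hO]
      exact Finset.smul_mem_smul_finset hp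
    rw [mem_support_word] at h1
    have horb : h₁ (a 5) ∈ MulAction.orbit (KK [5, 4, 3, 2, 1, 0]) (pt 7) := by
      rw [orbit7]
      exact ⟨h1, hcode⟩
    rw [mem_orbit_KK] at horb
    obtain ⟨k, hk, hk7⟩ := horb
    rw [mem_KK] at hk
    apply hfin k hk.1
    · intro j hj
      exact hk.2 j (by
        have : ∀ j < 5, j ∈ [5, 4, 3, 2, 1, 0] := by decide
        exact this j hj)
    · rw [hc7]
      exact hk7
  · have hp : a 5 ∉ o := by
      intro hp
      apply hno
      refine ⟨o, ho, fun i => ?_⟩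
      by_cases hi : i.val < 5
      · have := hxo ⟨i.val, hi⟩
        rw [hx] at this
        have e : Fin.castSucc (⟨i.val, hi⟩ : Fin 5) = i := Fin.ext rfl
        rw [e] at this
        exact this
      · have e : i = 5 := Fin.ext (by
          have := i.2
          simp
          omega)
        rw [e]
        exact hp
    have h1 : ¬ h₁ (a 5) ∈ support₂ (word 5279) := by
      rw [← hO]
      intro h
      exact hp ((Finset.smul_mem_smul_finset_iff h₁).mp h)
    rw [mem_support_word, Bool.not_eq_true] at h1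
    have horb : h₁ (a 5) ∈ MulAction.orbit (KK [4, 3, 2, 1, 0]) (pt 5) := by
      rw [orbit6]
      exact h1
    rw [mem_orbit_KK] at horb
    obtain ⟨k, hk, hk5⟩ := horb
    rw [mem_KK] at hk
    apply hfin k hk.1
    · intro j hj
      exact hk.2 j (by
        have : ∀ j < 5, j ∈ [4, 3, 2, 1, 0] := by decide
        exact this j hj)
    · rw [hc5]
      exact hk5

/-- The stabilizer of `pt 0, …, pt 4, pt 7` has order 16. -/
theorem card_KK57 : Nat.card (KK [7, 4, 3, 2, 1, 0]) = 16 := by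
  have horb : MulAction.orbit (KK [4, 3, 2, 1, 0]) (pt 7)
      = {q | Nat.testBit 5279 (code q) = true ∧ 5 ≤ code q} := by
    ext q
    constructor
    · intro hq
      rw [mem_orbit_KK] at hq
      obtain ⟨g, hg, rfl⟩ := hq
      rw [mem_KK] at hg
      have h1 : pt 7 ∈ support₂ (word 5279) :=
        mem_support_word.2 (by rw [code_pt 7 (by norm_num)]; decide)
      have h2 := oct_pres hg.1 (fixes31 hg.2) oct5 h1
      rw [mem_support_word] at h2
      refine ⟨h2, ?_⟩
      by_contra hlt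
      have h3 := hg.2 (code (g (pt 7))) (by
        have : ∀ j < 5, j ∈ [4, 3, 2, 1, 0] := by decide
        exact this _ (by omega))
      rw [pt_code] at h3
      have h4 := g.injective h3
      rw [h4, code_pt 7 (by norm_num)] at hlt
      omega
    · intro hq
      rw [← orbit7, mem_orbit_KK] at hq
      obtain ⟨g, hg, rfl⟩ := hq
      rw [mem_orbit_KK]
      refine ⟨g, ?_, rfl⟩
      rw [mem_KK] at hg ⊢
      exact ⟨hg.1, fun f hf => hg.2 f (List.mem_cons_of_mem _ hf)⟩
  have h := card_eq_orbit_mul (KK [4, 3, 2, 1, 0]) (pt 7)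
  rw [card_KK5, ← KK_cons, horb, ncard_pts] at h
  have h3 : (Finset.univ.filter
      (fun q : GolayPt => Nat.testBit 5279 (code q) = true ∧ 5 ≤ code q)).card = 3 := by
    decide +kernel
  rw [h3] at h
  omega

/-- The pointwise stabilizer of six points in standard position, transported. -/
theorem fix6_equiv (E : Finset GolayPt) (a : Fin 6 → GolayPt)
    (hEa : ∀ q, q ∈ E ↔ ∃ i, a i = q) (c : ℕ) (h : Equiv.Perm GolayPt) (hh : h ∈ M24)
    (hmap : ∀ i : Fin 6, h (a i) = pt (if i.val < 5 then i.val else c)) :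
    Nat.card {g : Equiv.Perm GolayPt // g ∈ M24 ∧ ∀ p ∈ E, g p = p}
      = Nat.card (KK [c, 4, 3, 2, 1, 0]) := by
  have hL : ∀ f ∈ [c, 4, 3, 2, 1, 0], ∃ i : Fin 6, f = (if i.val < 5 then i.val else c) := by
    intro f hf
    simp only [List.mem_cons, List.not_mem_nil, or_false] at hf
    rcases hf with rfl | rfl | rfl | rfl | rfl | rfl
    · exact ⟨5, by simp⟩
    · exact ⟨4, by simp⟩
    · exact ⟨3, by simp⟩
    · exact ⟨2, by simp⟩
    · exact ⟨1, by simp⟩
    · exact ⟨0, by simp⟩
  have hL' : ∀ i : Fin 6, (if i.val < 5 then i.val else c) ∈ [c, 4, 3, 2, 1, 0] := by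
    intro i
    by_cases hi : i.val < 5
    · rw [if_pos hi]
      have : ∀ j < 5, j ∈ [c, 4, 3, 2, 1, 0] := by
        intro j hj
        interval_cases j <;> simp
      exact this _ hi
    · rw [if_neg hi]
      exact List.mem_cons_self
  refine Nat.card_congr ⟨fun g => ⟨h * g.1 * h⁻¹, ?_⟩, fun k => ⟨h⁻¹ * k.1 * h, ?_, ?_⟩, ?_, ?_⟩
  · rw [mem_KK]
    refine ⟨Subgroup.mul_mem _ (Subgroup.mul_mem _ hh g.2.1) (Subgroup.inv_mem _ hh), ?_⟩
    intro f hf
    obtain ⟨i, rfl⟩ := hL f hf
    rw [← hmap i]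
    have hg := g.2.2 (a i) ((hEa _).mpr ⟨i, rfl⟩)
    simp [hg]
  · exact Subgroup.mul_mem _ (Subgroup.mul_mem _ (Subgroup.inv_mem _ hh) (mem_KK.mp k.2).1) hh
  · intro p hp
    obtain ⟨i, rfl⟩ := (hEa p).mp hp
    have hk := (mem_KK.mp k.2).2 _ (hL' i)
    rw [Equiv.Perm.mul_apply, Equiv.Perm.mul_apply, hmap i, hk, ← hmap i]
    simp
  · intro g
    apply Subtype.ext
    show h⁻¹ * (h * g.1 * h⁻¹) * h = g.1
    group
  · intro k
    apply Subtype.ext
    show h * (h⁻¹ * k.1 * h) * h⁻¹ = k.1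
    group

/-- If every permutation of `E` is induced by the group, the setwise stabilizer of `E` has order
the order of the pointwise stabilizer times `|E|!`. -/
theorem stab_card_of_surj (E : Finset GolayPt)
    (hsurj : ∀ σ : Equiv.Perm ↥E, ∃ g ∈ M24, ∀ p : ↥E, g p = σ p) :
    Nat.card ↥(MulAction.stabilizer Cfsg.M24 E)
      = Nat.card {g : Equiv.Perm GolayPt // g ∈ M24 ∧ ∀ p ∈ E, g p = p} * (E.card).factorial := by
  classical
  have hs : ∀ s : ↥(MulAction.stabilizer Cfsg.M24 E), ∀ x : GolayPt,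
      (s.1.1 : Equiv.Perm GolayPt) x ∈ E ↔ x ∈ E := by
    intro s x
    have h1 : (s.1.1 : Equiv.Perm GolayPt) • E = E := MulAction.mem_stabilizer_iff.mp s.2
    have h2 : (s.1.1 : Equiv.Perm GolayPt) • x ∈ (s.1.1 : Equiv.Perm GolayPt) • E ↔ x ∈ E :=
      Finset.smul_mem_smul_finset_iff _
    rw [h1] at h2
    exact h2
  let φ : ↥(MulAction.stabilizer Cfsg.M24 E) →* Equiv.Perm ↥E :=
    { toFun := fun s => Equiv.Perm.subtypePerm s.1.1 (hs s)
      map_one' := by
        apply Equiv.ext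
        intro x
        apply Subtype.ext
        rfl
      map_mul' := by
        intro s t
        apply Equiv.ext
        intro x
        apply Subtype.ext
        rfl }
  have hφ : ∀ (s : ↥(MulAction.stabilizer Cfsg.M24 E)) (x : ↥E),
      ((φ s x : ↥E) : GolayPt) = (s.1.1 : Equiv.Perm GolayPt) x := fun s x => rfl
  have hsurjφ : Function.Surjective φ := by
    intro σ
    obtain ⟨g, hg, hgσ⟩ := hsurj σ
    have hgE : g • E = E := by
      apply Finset.eq_of_subset_of_card_le
      · intro x hx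
        rw [Finset.mem_smul_finset] at hx
        obtain ⟨y, hy, rfl⟩ := hx
        have := hgσ ⟨y, hy⟩
        show g y ∈ E
        rw [this]
        exact (σ ⟨y, hy⟩).2
      · rw [Finset.card_smul_finset]
    refine ⟨⟨⟨g, hg⟩, MulAction.mem_stabilizer_iff.mpr hgE⟩, ?_⟩
    apply Equiv.ext
    intro x
    apply Subtype.ext
    rw [hφ]
    exact hgσ x
  have hker : Nat.card ↥φ.ker
      = Nat.card {g : Equiv.Perm GolayPt // g ∈ M24 ∧ ∀ p ∈ E, g p = p} := by
    refine Nat.card_congr ⟨fun s => ⟨s.1.1.1, s.1.1.2, ?_⟩, fun g => ⟨⟨⟨g.1, g.2.1⟩, ?_⟩, ?_⟩,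
      ?_, ?_⟩
    · intro p hp
      have h1 : φ s.1 = 1 := MonoidHom.mem_ker.mp s.2
      have h2 := hφ s.1 ⟨p, hp⟩
      rw [h1] at h2
      exact h2.symm
    · rw [MulAction.mem_stabilizer_iff]
      show g.1 • E = E
      apply Finset.eq_of_subset_of_card_le
      · intro x hx
        rw [Finset.mem_smul_finset] at hx
        obtain ⟨y, hy, rfl⟩ := hx
        show g.1 y ∈ E
        rw [g.2.2 y hy]
        exact hy
      · rw [Finset.card_smul_finset]
    · rw [MonoidHom.mem_ker]
      apply Equiv.ext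
      intro x
      apply Subtype.ext
      rw [hφ]
      exact g.2.2 x.1 x.2
    · intro s
      rfl
    · intro g
      rfl
  have hE' : Nat.card ↥E = E.card := by
    rw [Nat.card_eq_fintype_card, Fintype.card_coe]
  have h1 := Subgroup.card_mul_index φ.ker
  rw [Subgroup.index_ker, MonoidHom.range_eq_top.mpr hsurjφ, Subgroup.card_top, hker,
    Nat.card_perm, hE'] at h1
  exact h1.symm

end Cfsg.Agent.Lib.Helper28
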